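import Mathlib
import Cfsg.Agent.H879.E83.Hecke

/-!
# S5925, box E: dimensions

`X, Y, T` as in `H879/E83/Hecke` (`PSL₂(11)` acting on a module of characteristic 3, no nonzero fixed vector).

* `inj_pP`: `v ↦ π₊ T v - v` is injective on the fixed vectors of `B = ⟨X, Y⟩`.
* `five_le`: `5 dim {w | Y w = w, xN X w = 0} ≤ dim ker (xN X)`.
* `no24`: the case `dim M = 248`, `dim M^B ≥ 24` is impossible when `dim ker (xN X) = dim ker (xR X)`.
-/

set_option autoImplicit false

namespace Cfsg.Agent.H395.E83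

open Cfsg.Agent.H879.E83 Module

section mod
variable {A : Type*} [Ring A] {M : Type*} [AddCommGroup M] [Module A M] {X Y T : A}

theorem three_zero (h3 : (3 : A) = 0) (v : M) : (3 : ℕ) • v = 0 := by
  have : (3 : ℕ) • v = (3 : A) • v := by
    rw [← Nat.cast_smul_eq_nsmul A]; norm_num
  rw [this, h3, zero_smul]

/-- **Injectivity.** -/
theorem inj_pP (h : Rel X Y T) (hinv : ∀ w : M, X • w = w → Y • w = w → T • w = w → w = 0) {v : M} (hx : X • v = v)
    (hy : Y • v = v) (ha : pP X Y • T • v = v) : v = 0 := by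
  have hTy : Y • T • v = T • v := Y_T h hy
  have t0 : T • T • v = v := by rw [← mul_smul, h.tt, one_smul]
  have r0 := T_Xr h hx hy 0
  have r1 := T_Xr h hx hy 1
  have r2 := T_Xr h hx hy 2
  have r3 := T_Xr h hx hy 3
  have r4 := T_Xr h hx hy 4
  have n0 := T_Xn h hx hy 0
  have n1 := T_Xn h hx hy 1
  have n2 := T_Xn h hx hy 2
  have n3 := T_Xn h hx hy 3
  have n4 := T_Xn h hx hy 4
  rw [X_mod h (3 ^ _)] at r0 r1 r2 r3 r4
  rw [X_mod h (3 ^ _)] at n0 n1 n2 n3 n4
  norm_num at r0 r1 r2 r3 r4 n0 n1 n2 n3 n4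
  have eR : xR X • T • v = - v := by
    have h1 := ha
    rw [pP_eq h, neg_smul, mul_smul, ey_of_fix h hTy] at h1
    rw [← neg_neg (xR X • T • v), h1]
  have eN : T • v + xN X • T • v = 0 := by
    have e0 := sum_zero h hinv hx hy
    rw [sX_eq, add_smul, add_smul, one_smul, eR] at e0
    have e1 : T • v + xN X • T • v = v + (T • v + - v + xN X • T • v) := by abel
    rw [e1, e0]
  generalize hu0 : T • v = u at hTy t0 r0 r1 r2 r3 r4 n0 n1 n2 n3 n4 eR eN
  -- shifts
  have hX : ∀ n : ℕ, X ^ n • v = v := fun n => pow_smul_fix hx n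
  have sh : ∀ i j : ℕ, X ^ i • X ^ j • u = X ^ ((i + j) % 11) • u := fun i j => by
    rw [← mul_smul, hmul h]
  have sh1 : ∀ i : ℕ, X ^ i • X • u = X ^ ((i + 1) % 11) • u := fun i => by
    have := sh i 1
    rwa [pow_one] at this
  have R1 : X ^ 2 • u + X ^ 4 • u + X ^ 5 • u + X ^ 6 • u + X ^ 10 • u = - v := by
    have h1 : X ^ 1 • (xR X • u) = X ^ 1 • (- v) := by rw [eR]
    rw [smul_neg, hX] at h1
    simp only [xR, add_smul, smul_add, sh, sh1, Nat.reduceAdd, Nat.reduceMod] at h1
    exact h1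
  have R5 : X ^ 6 • u + X ^ 8 • u + X ^ 9 • u + X ^ 10 • u + X ^ 3 • u = - v := by
    have h1 : X ^ 5 • (xR X • u) = X ^ 5 • (- v) := by rw [eR]
    rw [smul_neg, hX] at h1
    simp only [xR, add_smul, smul_add, sh, sh1, Nat.reduceAdd, Nat.reduceMod] at h1
    exact h1
  have N9 : X ^ 9 • u + (u + X ^ 4 • u + X ^ 5 • u + X ^ 6 • u + X ^ 8 • u) = 0 := by
    have h1 : X ^ 9 • (u + xN X • u) = 0 := by rw [eN, smul_zero]
    simp only [xN, add_smul, smul_add, sh, sh1, Nat.reduceAdd, Nat.reduceMod, pow_zero, one_smul] at h1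
    exact h1
  -- apply `T` to `R1`
  have S0 : X ^ 5 • u + X ^ 8 • u + X ^ 2 • u + X ^ 9 • u + X • u = - u := by
    have h1 : T • (X ^ 2 • u + X ^ 4 • u + X ^ 5 • u + X ^ 6 • u + X ^ 10 • u) = T • (- v) := by rw [R1]
    rw [smul_neg, hu0] at h1
    simp only [smul_add, r0, r1, r2, r3, r4, n0, n1, n2, n3, n4] at h1
    exact h1
  have S1 : X ^ 6 • u + X ^ 9 • u + X ^ 3 • u + X ^ 10 • u + X ^ 2 • u = - (X • u) := by
    have h1 : X ^ 1 • (X ^ 5 • u + X ^ 8 • u + X ^ 2 • u + X ^ 9 • u + X • u) = X ^ 1 • (- u) := by rw [S0]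
    rw [pow_one] at h1
    have sh2 : ∀ j : ℕ, X • X ^ j • u = X ^ ((1 + j) % 11) • u := fun j => by
      have := sh 1 j
      rwa [pow_one] at this
    have sh3 : X • X • u = X ^ 2 • u := by rw [← mul_smul, ← sq]
    simp only [smul_neg, smul_add, sh2, sh3, Nat.reduceAdd, Nat.reduceMod] at h1
    exact h1
  have S4 : X ^ 9 • u + X • u + X ^ 6 • u + X ^ 2 • u + X ^ 5 • u = - (X ^ 4 • u) := by
    have h1 : X ^ 4 • (X ^ 5 • u + X ^ 8 • u + X ^ 2 • u + X ^ 9 • u + X • u) = X ^ 4 • (- u) := by rw [S0]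
    simp only [smul_neg, smul_add, sh, sh1, Nat.reduceAdd, Nat.reduceMod, pow_one] at h1
    exact h1
  have hu : u = v := by
    have e : u = - (X ^ 6 • u + X ^ 8 • u + X ^ 9 • u + X ^ 10 • u + X ^ 3 • u)
        + (X ^ 9 • u + (u + X ^ 4 • u + X ^ 5 • u + X ^ 6 • u + X ^ 8 • u))
        + ((X ^ 6 • u + X ^ 9 • u + X ^ 3 • u + X ^ 10 • u + X ^ 2 • u) + X • u)
        - ((X ^ 9 • u + X • u + X ^ 6 • u + X ^ 2 • u + X ^ 5 • u) + X ^ 4 • u) := by abel
    rw [R5, N9, S1, S4] at e
    rw [e]
    abel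
  exact hinv v hx hy (hu0.trans hu)

/-- the relations among five vectors of `ker (Y - 1) ∩ ker (xN X)` -/
theorem sY_X_pow (h : Rel X Y T) {w : M} (hy : Y • w = w) (n : ℕ) :
    sY Y • X ^ n • w = X ^ n • w + X ^ ((3 * n) % 11) • w + X ^ ((9 * n) % 11) • w + X ^ ((27 * n) % 11) • w +
      X ^ ((81 * n) % 11) • w := by
  have e : ∀ i : ℕ, Y ^ i • X ^ n • w = X ^ ((3 ^ i * n) % 11) • w := fun i => by
    rw [← mul_smul, yx2 h, mul_smul, pow_smul_fix hy, X_mod h]
  have e1 : Y • X ^ n • w = X ^ ((3 * n) % 11) • w := by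
    have := e 1
    rwa [pow_one, pow_one] at this
  simp only [sY, add_smul, one_smul, e1, e]
  norm_num

/-- `Σ X^i w_i = 0` for `w_i` in `ker (Y - 1) ∩ ker (xN X)` implies `w_i = 0` -/
theorem five_zero (h : Rel X Y T) (w : Fin 5 → M) (hy : ∀ i, Y • w i = w i) (hN : ∀ i, xN X • w i = 0)
    (h0 : w 0 + X • w 1 + X ^ 2 • w 2 + X ^ 3 • w 3 + X ^ 4 • w 4 = 0) : ∀ i, w i = 0 := by
  have hs : ∀ i, sX X • w i = 0 := fun i => by
    have h1 : (xR X * xN X) • w i = 0 := by rw [mul_smul, hN, smul_zero]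
    rw [xR_mul_xN h, neg_smul, neg_eq_zero] at h1
    exact h1
  have hR : ∀ i, xR X • w i = - w i := fun i => by
    have h1 := hs i
    rw [sX_eq, add_smul, add_smul, one_smul, hN, add_zero] at h1
    exact (neg_eq_of_add_eq_zero_right h1).symm
  have t0 : ∀ i, sY Y • w i = - w i := fun i => by
    have h3 := three_zero h.three (w i)
    have e : sY Y • w i = (5 : ℕ) • w i := by
      have := sY_X_pow h (hy i) 0
      simp only [pow_zero, one_smul, mul_zero, Nat.zero_mod] at this
      rw [this]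
      abel
    have e2 : (5 : ℕ) • w i = (3 : ℕ) • w i + (3 : ℕ) • w i + - w i := by abel
    rw [e, e2, h3]; simp
  have tR : ∀ i, ∀ n ∈ ([1, 3, 4, 5, 9] : List ℕ), sY Y • X ^ n • w i = - w i := fun i n hn => by
    have h1 := hR i
    simp only [xR, add_smul] at h1
    rw [sY_X_pow h (hy i), ← h1]
    simp only [List.mem_cons, List.not_mem_nil, or_false] at hn
    rcases hn with rfl | rfl | rfl | rfl | rfl <;> norm_num <;> abel
  have tN : ∀ i, ∀ n ∈ ([2, 6, 7, 8, 10] : List ℕ), sY Y • X ^ n • w i = 0 := fun i n hn => by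
    have h1 := hN i
    simp only [xN, add_smul] at h1
    rw [sY_X_pow h (hy i), ← h1]
    simp only [List.mem_cons, List.not_mem_nil, or_false] at hn
    rcases hn with rfl | rfl | rfl | rfl | rfl <;> norm_num <;> abel
  have sh : ∀ (i : Fin 5) (a b : ℕ), X ^ a • X ^ b • w i = X ^ ((a + b) % 11) • w i := fun i a b => by
    rw [← mul_smul, hmul h]
  have E : ∀ m : ℕ, sY Y • X ^ m • w 0 + sY Y • X ^ ((m + 1) % 11) • w 1 + sY Y • X ^ ((m + 2) % 11) • w 2 +
      sY Y • X ^ ((m + 3) % 11) • w 3 + sY Y • X ^ ((m + 4) % 11) • w 4 = 0 := fun m => by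
    have h1 : sY Y • X ^ m • (w 0 + X ^ 1 • w 1 + X ^ 2 • w 2 + X ^ 3 • w 3 + X ^ 4 • w 4) = 0 := by
      rw [pow_one, h0, smul_zero, smul_zero]
    simp only [smul_add, sh] at h1
    exact h1
  have E0 := E 0
  have E8 := E 8
  have E7 := E 7
  have E10 := E 10
  have E3 := E 3
  have E4 := E 4
  have E6 := E 6
  have E1 := E 1
  have E9 := E 9
  simp only [pow_zero, one_smul, Nat.reduceAdd, Nat.reduceMod, t0] at E0 E8 E7 E10 E3 E4 E6 E1 E9
  simp only [tR _ 1 (by simp), tR _ 3 (by simp), tR _ 4 (by simp), tR _ 5 (by simp), tR _ 9 (by simp),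
    tN _ 2 (by simp), tN _ 6 (by simp), tN _ 7 (by simp), tN _ 8 (by simp), tN _ 10 (by simp), zero_add, add_zero]
    at E0 E8 E7 E10 E3 E4 E6 E1 E9
  have w0 : w 0 = 0 := by
    have e : w 0 = (- w 1 + - w 3 + - w 4) - (- w 0 + - w 1 + - w 3 + - w 4) := by abel
    rw [e, E8, E0, sub_self]
  have w1 : w 1 = 0 := by
    have e : w 1 = (- w 2 + - w 4) - (- w 1 + - w 2 + - w 4) := by abel
    rw [e, E7, E10, sub_self]
  have w2 : w 2 = 0 := by
    have e : w 2 = (- w 0 + - w 1) - (- w 0 + - w 1 + - w 2) := by abel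
    rw [e, E3, E4, sub_self]
  have w3 : w 3 = 0 := neg_eq_zero.1 E6
  have w4 : w 4 = 0 := by
    have e : w 4 = (- w 0 + - w 2 + - w 3) - (- w 0 + - w 2 + - w 3 + - w 4) := by abel
    rw [e, E1, E9, sub_self]
  intro i
  fin_cases i
  · exact w0
  · exact w1
  · exact w2
  · exact w3
  · exact w4

end mod

/-! ## dimensions -/
section dim
variable {F M : Type*} [Field F] [AddCommGroup M] [Module F M] [FiniteDimensional F M] {X Y T : Module.End F M}

/-- the fixed vectors of `Y` in the kernel of `xN X`, the space of the factor on which `xR X = -1`, `xN X = 0` -/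
def partR (X Y : Module.End F M) : Submodule F M := LinearMap.ker (Y - 1) ⊓ LinearMap.ker (xN X)

omit [FiniteDimensional F M] in
theorem mem_partR {X Y : Module.End F M} {w : M} : w ∈ partR X Y ↔ Y w = w ∧ xN X w = 0 := by
  unfold partR
  rw [Submodule.mem_inf, LinearMap.mem_ker, LinearMap.mem_ker, LinearMap.sub_apply, sub_eq_zero]
  rfl

/-- **five copies**: `5 dim ≤ dim ker (xN X)` -/
theorem five_le (h : Rel X Y T) : 5 * finrank F (partR X Y) ≤ finrank F (LinearMap.ker (xN X)) := by
  have hc : ∀ (n : ℕ) (w : M), xN X w = 0 → xN X ((X ^ n) w) = 0 := fun n w hw => by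
    have h1 : xN X * X ^ n = X ^ n * xN X := by
      have : Commute (xN X) X := by
        unfold xN
        refine ((((Commute.refl X).pow_left 2 |>.add_left ?_).add_left ?_).add_left ?_).add_left ?_
        · exact (Commute.refl X).pow_left 6
        · exact (Commute.refl X).pow_left 7
        · exact (Commute.refl X).pow_left 8
        · exact (Commute.refl X).pow_left 10
      exact (this.pow_right n)
    have h2 : (xN X * X ^ n) w = (X ^ n * xN X) w := by rw [h1]
    rw [Module.End.mul_apply, Module.End.mul_apply, hw, map_zero] at h2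
    exact h2
  let f : (Fin 5 → partR X Y) →ₗ[F] LinearMap.ker (xN X) :=
    { toFun := fun w => ⟨∑ i : Fin 5, (X ^ (i : ℕ)) (w i : M), by
        rw [LinearMap.mem_ker, map_sum]
        exact Finset.sum_eq_zero fun i _ => hc _ _ (mem_partR.1 (w i).2).2⟩
      map_add' := fun v w => by
        ext
        simp [Finset.sum_add_distrib]
      map_smul' := fun c w => by
        ext
        simp [Finset.smul_sum] }
  have hf : Function.Injective f := by
    rw [← LinearMap.ker_eq_bot, LinearMap.ker_eq_bot']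
    intro w hw
    have h0 : ∑ i : Fin 5, (X ^ (i : ℕ)) (w i : M) = 0 := congrArg Subtype.val hw
    simp only [Fin.sum_univ_five] at h0
    have h1 := five_zero h (fun i => (w i : M)) (fun i => (mem_partR.1 (w i).2).1) (fun i => (mem_partR.1 (w i).2).2)
      (by
        have h2 : (w 0 : M) + X (w 1 : M) + (X ^ 2) (w 2 : M) + (X ^ 3) (w 3 : M) + (X ^ 4) (w 4 : M) = 0 := by
          rw [← h0]
          simp
        exact h2)
    funext i
    exact Subtype.ext (h1 i)
  have h1 := LinearMap.finrank_le_finrank_of_injective hf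
  rw [Module.finrank_pi_fintype] at h1
  simpa using h1

/-- the three kernels are independent -/
theorem three_le (h : Rel X Y T) : finrank F (LinearMap.ker (X - 1)) + finrank F (LinearMap.ker (xN X)) +
    finrank F (LinearMap.ker (xR X)) ≤ finrank F M := by
  let f : (LinearMap.ker (X - 1) × LinearMap.ker (xN X)) × LinearMap.ker (xR X) →ₗ[F] M :=
    (((LinearMap.ker (X - 1)).subtype).coprod (LinearMap.ker (xN X)).subtype).coprod (LinearMap.ker (xR X)).subtype
  have hf : Function.Injective f := by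
    rw [← LinearMap.ker_eq_bot, LinearMap.ker_eq_bot']
    rintro ⟨⟨⟨a, ha⟩, ⟨b, hb⟩⟩, ⟨c, hc⟩⟩ h0
    have h0' : a + b + c = 0 := h0
    rw [LinearMap.mem_ker, LinearMap.sub_apply, sub_eq_zero] at ha
    rw [LinearMap.mem_ker] at hb hc
    have ha' : X • a = a := ha
    have hb' : xN X • b = 0 := hb
    have hc' : xR X • c = 0 := hc
    have e3 := three_zero h.three a
    have e3c := three_zero h.three c
    have s5 : ∀ n : ℕ, X ^ n • a = a := fun n => pow_smul_fix ha' n
    have aR : xR X • a = - a := by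
      simp only [xR, add_smul, s5, ha']
      have : a + a + a + a + a = (3 : ℕ) • a + (3 : ℕ) • a + - a := by abel
      rw [this, e3]; simp
    have aN : xN X • a = - a := by
      simp only [xN, add_smul, s5]
      have : a + a + a + a + a = (3 : ℕ) • a + (3 : ℕ) • a + - a := by abel
      rw [this, e3]; simp
    have bs : sX X • b = 0 := by
      have h1 : (xR X * xN X) • b = 0 := by rw [mul_smul, hb', smul_zero]
      rw [xR_mul_xN h, neg_smul, neg_eq_zero] at h1
      exact h1
    have bR : xR X • b = - b := by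
      rw [sX_eq, add_smul, add_smul, one_smul, hb', add_zero] at bs
      exact (neg_eq_of_add_eq_zero_right bs).symm
    have cs : sX X • c = 0 := by
      have h1 : (xN X * xR X) • c = 0 := by rw [mul_smul, hc', smul_zero]
      rw [xN_mul_xR h, neg_smul, neg_eq_zero] at h1
      exact h1
    have cN : xN X • c = - c := by
      rw [sX_eq, add_smul, add_smul, one_smul, hc', add_zero] at cs
      exact (neg_eq_of_add_eq_zero_right cs).symm
    have h1 : - a + - b = 0 := by
      have h2 : xR X • (a + b + c) = 0 := by rw [h0', smul_zero]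
      rwa [smul_add, smul_add, aR, bR, hc', add_zero] at h2
    have h2 : - a + - c = 0 := by
      have h2 : xN X • (a + b + c) = 0 := by rw [h0', smul_zero]
      rwa [smul_add, smul_add, aN, hb', cN, add_zero] at h2
    have ea : a = 0 := by
      have e : a = -((a + b + c) + (- a + - b) + (- a + - c)) + 0 := by abel
      rw [e, h0', h1, h2]; simp
    have eb : b = 0 := by
      rw [ea, neg_zero, zero_add, neg_eq_zero] at h1; exact h1
    have ec : c = 0 := by
      rw [ea, neg_zero, zero_add, neg_eq_zero] at h2; exact h2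
    subst ea; subst eb; subst ec
    rfl
  have h1 := LinearMap.finrank_le_finrank_of_injective hf
  rw [Module.finrank_prod, Module.finrank_prod] at h1
  exact h1

/-- the relations for `X⁻¹` -/
theorem rel_inv {A : Type*} [Ring A] {X Y T : A} (h : Rel X Y T) : Rel (X ^ 10) Y T where
  x11 := by rw [← pow_mul, mul_comm, pow_mul, h.x11, one_pow]
  y5 := h.y5
  tt := h.tt
  yx := by
    rw [Y_mul_X_pow h, ← pow_mul, X_mod h (10 * 3)]
  ty := h.ty
  txt := by
    rw [← pow_mul, X_mod h (10 * 10)]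
    norm_num
    exact T_X10_T h
  three := h.three

theorem xN_inv {A : Type*} [Ring A] {X Y T : A} (h : Rel X Y T) : xN (X ^ 10) = xR X := by
  simp only [xN, xR, ← pow_mul]
  rw [X_mod h (10 * 2), X_mod h (10 * 6), X_mod h (10 * 7), X_mod h (10 * 8), X_mod h (10 * 10)]
  norm_num
  abel

theorem xR_inv {A : Type*} [Ring A] {X Y T : A} (h : Rel X Y T) : xR (X ^ 10) = xN X := by
  simp only [xN, xR, ← pow_mul]
  rw [X_mod h (10 * 3), X_mod h (10 * 4), X_mod h (10 * 5), X_mod h (10 * 9)]
  norm_num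
  abel

/-- the other half -/
def partN (X Y : Module.End F M) : Submodule F M := LinearMap.ker (Y - 1) ⊓ LinearMap.ker (xR X)

omit [FiniteDimensional F M] in
theorem partN_eq (h : Rel X Y T) : partN X Y = partR (X ^ 10) Y := by
  unfold partN partR
  rw [xN_inv h]

omit [FiniteDimensional F M] in
theorem mem_partN {X Y : Module.End F M} {w : M} : w ∈ partN X Y ↔ Y w = w ∧ xR X w = 0 := by
  unfold partN
  rw [Submodule.mem_inf, LinearMap.mem_ker, LinearMap.mem_ker, LinearMap.sub_apply, sub_eq_zero]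
  rfl

/-- **the halves have dimension at most 22** (`X` of order 11 with at least 24-dimensional fixed space on the
248-dimensional module, the two kernels being of the same dimension) -/
theorem partR_le (h : Rel X Y T) (hM : finrank F M = 248)
    (hk : finrank F (LinearMap.ker (xN X)) = finrank F (LinearMap.ker (xR X)))
    (h24 : 24 ≤ finrank F (LinearMap.ker (X - 1))) : finrank F (partR X Y) ≤ 22 := by
  have h1 := five_le h
  have h2 := three_le h
  omega

theorem partN_le (h : Rel X Y T) (hM : finrank F M = 248)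
    (hk : finrank F (LinearMap.ker (xN X)) = finrank F (LinearMap.ker (xR X)))
    (h24 : 24 ≤ finrank F (LinearMap.ker (X - 1))) : finrank F (partN X Y) ≤ 22 := by
  rw [partN_eq h]
  refine partR_le (rel_inv h) hM ?_ ?_
  · rw [xN_inv h, xR_inv h, hk]
  · refine h24.trans (Submodule.finrank_mono ?_)
    intro v hv
    rw [LinearMap.mem_ker, LinearMap.sub_apply, sub_eq_zero] at hv ⊢
    exact pow_smul_fix (A := Module.End F M) hv 10

/-- **the case `dim M^B ≥ 24` is impossible** (no nonzero fixed vector of `⟨X, Y, T⟩`) -/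
theorem no24 (h : Rel X Y T) (hinv : ∀ w : M, X w = w → Y w = w → T w = w → w = 0) (hM : finrank F M = 248)
    (hk : finrank F (LinearMap.ker (xN X)) = finrank F (LinearMap.ker (xR X)))
    (h24 : 24 ≤ finrank F ↥(LinearMap.ker (X - 1) ⊓ LinearMap.ker (Y - 1))) : False := by
  have hinv' : ∀ w : M, X • w = w → Y • w = w → T • w = w → w = 0 := hinv
  let D : Submodule F M := LinearMap.ker (X - 1) ⊓ LinearMap.ker (Y - 1)
  have hD : ∀ v ∈ D, X • v = v ∧ Y • v = v := fun v hv => by
    obtain ⟨h1, h2⟩ := Submodule.mem_inf.1 hv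
    rw [LinearMap.mem_ker, LinearMap.sub_apply, sub_eq_zero] at h1 h2
    exact ⟨h1, h2⟩
  let g : M →ₗ[F] M := pP X Y * T - 1
  have hg : ∀ v ∈ D, g v ∈ partR X Y := fun v hv => by
    obtain ⟨hx, hy⟩ := hD v hv
    have e : g v = pP X Y • T • v - v := rfl
    rw [mem_partR, e]
    have h1 : Y • (pP X Y • T • v - v) = pP X Y • T • v - v := by
      rw [smul_sub, hy, ← mul_smul, pP, ← mul_assoc, ← mul_assoc, Y_mul_ey h]
    refine ⟨h1, ?_⟩
    have h2 := pM_a h hinv' hx hy
    rw [pM_eq h, neg_smul, mul_smul, ey_of_fix h h1, neg_eq_zero] at h2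
    exact h2
  let f : D →ₗ[F] partR X Y := (g.restrict hg)
  have hf : Function.Injective f := by
    rw [← LinearMap.ker_eq_bot, LinearMap.ker_eq_bot']
    rintro ⟨v, hv⟩ h0
    obtain ⟨hx, hy⟩ := hD v hv
    have e : pP X Y • T • v - v = 0 := congrArg Subtype.val h0
    exact Subtype.ext (inj_pP h hinv' hx hy (sub_eq_zero.1 e))
  have h1 := LinearMap.finrank_le_finrank_of_injective hf
  have h2 := partR_le h hM hk (h24.trans (Submodule.finrank_mono inf_le_left))
  have h3 : 24 ≤ finrank F D := h24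
  omega

end dim

end Cfsg.Agent.H395.E83
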