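import Mathlib
import Cfsg.Agent.H395.E83.Dim
import Cfsg.Agent.H696.GmnUntw

/-!
# S5925, box E: elements of order 11 of `E₈(3)` are real, the two halves have the same dimension
-/

set_option autoImplicit false
set_option maxRecDepth 100000

namespace Cfsg.Agent.H395.E83

open Cfsg.Agent.H879.E83 Module
open CoxeterSystem Cfsg Cfsg.Lie Cfsg.Lie.ChevalleyDatum
open Cfsg.Agent.ChevalleyStructure Cfsg.Agent.ChevalleyStructure.CoxeterGeomTypes Cfsg.Agent.ChevalleyStructure.CoxeterGeom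
open Cfsg.Agent.Nodes Cfsg.Agent.Nodes.Coroot Cfsg.Agent.BpExc.RowsUntw Cfsg.Agent.H696 Cfsg.Agent.BpExc Cfsg.Agent

section rep
variable {F G M : Type*} [Field F] [Group G] [AddCommGroup M] [Module F M]

theorem xN_pow_ten {A : Type*} [Ring A] {X : A} (h : X ^ 11 = 1) : xN (X ^ 10) = xR X := by
  have hm : ∀ n : ℕ, X ^ n = X ^ (n % 11) := fun n => by
    conv_lhs => rw [← Nat.div_add_mod n 11]
    rw [pow_add, pow_mul, h, one_pow, one_mul]
  simp only [xN, xR, ← pow_mul]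
  rw [hm (10 * 2), hm (10 * 6), hm (10 * 7), hm (10 * 8), hm (10 * 10)]
  norm_num
  abel

theorem finrank_ker_eq (ρ : Representation F G M) {x : G} (h11 : x ^ 11 = 1) (hc : IsConj x x⁻¹) :
    finrank F (LinearMap.ker (xN (ρ x))) = finrank F (LinearMap.ker (xR (ρ x))) := by
  obtain ⟨c, hc⟩ := isConj_iff.1 hc
  have hi : x⁻¹ = x ^ 10 := inv_eq_of_mul_eq_one_right (by rw [← pow_succ', h11])
  have hX : ρ x ^ 11 = 1 := by rw [← map_pow, h11, map_one]
  have hcx : ρ x * ρ c = ρ c * ρ x ^ 10 := by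
    rw [← map_mul, ← map_pow, ← map_mul]
    congr 1
    have h1 : c⁻¹ * x⁻¹ * c = x := by rw [← hc]; group
    have h2 : c⁻¹ * x * c = x⁻¹ := by
      conv_rhs => rw [← h1]
      group
    rw [← hi, ← h2]
    group
  have hp : ∀ n : ℕ, ρ x ^ n * ρ c = ρ c * (ρ x ^ 10) ^ n := fun n => by
    induction n with
    | zero => simp
    | succ n ih => rw [pow_succ, mul_assoc, hcx, ← mul_assoc, ih, pow_succ (ρ x ^ 10) n, mul_assoc]
  have hN : xN (ρ x) * ρ c = ρ c * xR (ρ x) := by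
    rw [← xN_pow_ten hX]
    simp only [xN, add_mul, mul_add, hp]
  have hcc : ρ c⁻¹ * ρ c = 1 := by rw [← map_mul, inv_mul_cancel, map_one]
  have hcc' : ρ c * ρ c⁻¹ = 1 := by rw [← map_mul, mul_inv_cancel, map_one]
  let e : M ≃ₗ[F] M := LinearEquiv.ofLinearMap (ρ c) (ρ c⁻¹) hcc' hcc
  have h1 : LinearMap.ker (xN (ρ x)) = (LinearMap.ker (xR (ρ x))).map (e : M →ₗ[F] M) := by
    apply le_antisymm
    · intro v hv
      rw [LinearMap.mem_ker] at hv
      refine ⟨ρ c⁻¹ v, ?_, ?_⟩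
      · rw [SetLike.mem_coe, LinearMap.mem_ker]
        have h2 : (ρ c * xR (ρ x)) (ρ c⁻¹ v) = 0 := by
          rw [← hN, Module.End.mul_apply, ← Module.End.mul_apply (ρ c) (ρ c⁻¹), hcc']
          exact hv
        have h3 : (ρ c⁻¹ * (ρ c * xR (ρ x))) (ρ c⁻¹ v) = 0 := by
          rw [Module.End.mul_apply, h2, map_zero]
        rwa [← mul_assoc, hcc, one_mul] at h3
      · show (ρ c * ρ c⁻¹) v = v
        rw [hcc']
        rfl
    · rintro _ ⟨v, hv, rfl⟩
      rw [SetLike.mem_coe, LinearMap.mem_ker] at hv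
      rw [LinearMap.mem_ker]
      show (xN (ρ x) * ρ c) v = 0
      rw [hN, Module.End.mul_apply, hv, map_zero]
  rw [h1, LinearEquiv.finrank_map_eq]

end rep

/-- **Elements of order 11 of `E₈(3)` are real.** -/
theorem real11 {x : ↥(chevE8.group (ZMod 3))} (hx : x ^ 11 = 1) : IsConj x x⁻¹ := by
  have : Fact (Nat.Prime 3) := ⟨Nat.prime_three⟩
  exact Cfsg.Agent.H696.GmnUntw.isConj_inv (F := ZMod 3) (r := 3) Cfsg.Agent.BpExc.RowsUntw.e8T Cfsg.Agent.BpExc.FamInst.inv_E8 odd_one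
    (Cfsg.Agent.H696.GmnUntw.center_eq_bot_of_simple (S1054.result chevE8 (by simp)))
    (Cfsg.Agent.H696.GmnNeg.negE8 Cfsg.Agent.BpExc.RowsUntw.e8T _) (by norm_num : Nat.Prime 11) (by norm_num) hx

/-- the natural representation of `E₈(3)` on its adjoint module -/
noncomputable def adjR : Representation (ZMod 3) ↥(chevE8.group (ZMod 3)) (chevE8.Idx → ZMod 3) where
  toFun g := Matrix.mulVecLin ((g : GL chevE8.Idx (ZMod 3)) : Matrix chevE8.Idx chevE8.Idx (ZMod 3))
  map_one' := by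
    rw [OneMemClass.coe_one, Units.val_one, Matrix.mulVecLin_one]
    rfl
  map_mul' a b := by
    rw [Subgroup.coe_mul, Units.val_mul, Matrix.mulVecLin_mul]
    rfl

theorem adjR_apply (g : ↥(chevE8.group (ZMod 3))) (v : chevE8.Idx → ZMod 3) :
    adjR g v = (((g : GL chevE8.Idx (ZMod 3)) : Matrix chevE8.Idx chevE8.Idx (ZMod 3))).mulVec v := rfl

theorem finrank_L : finrank (ZMod 3) (chevE8.Idx → ZMod 3) = 248 := by
  rw [Module.finrank_fintype_fun_eq_card]
  decide +kernel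

theorem finrank_halves {x : ↥(chevE8.group (ZMod 3))} (hx : x ^ 11 = 1) :
    finrank (ZMod 3) (LinearMap.ker (xN (adjR x))) = finrank (ZMod 3) (LinearMap.ker (xR (adjR x))) :=
  finrank_ker_eq adjR hx (real11 hx)

/-- for `x, y, t` in `E₈(3)` with the relations of `PSL₂(11)` and without fixed vectors, `dim L^⟨x, y⟩ ≤ 23` -/
theorem fix_le {x y t : ↥(chevE8.group (ZMod 3))} (h : Rel (adjR x) (adjR y) (adjR t)) (hx : x ^ 11 = 1)
    (hinv : ∀ w : chevE8.Idx → ZMod 3, adjR x w = w → adjR y w = w → adjR t w = w → w = 0)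
    (h24 : 24 ≤ finrank (ZMod 3) ↥(LinearMap.ker (adjR x - 1) ⊓ LinearMap.ker (adjR y - 1))) : False :=
  no24 h hinv finrank_L (finrank_halves hx) h24

/-- the two halves -/
theorem parts_le {x y t : ↥(chevE8.group (ZMod 3))} (h : Rel (adjR x) (adjR y) (adjR t)) (hx : x ^ 11 = 1)
    (h24 : 24 ≤ finrank (ZMod 3) (LinearMap.ker (adjR x - 1))) :
    finrank (ZMod 3) (partR (adjR x) (adjR y)) ≤ 22 ∧ finrank (ZMod 3) (partN (adjR x) (adjR y)) ≤ 22 :=
  ⟨partR_le h finrank_L (finrank_halves hx) h24, partN_le h finrank_L (finrank_halves hx) h24⟩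

end Cfsg.Agent.H395.E83
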